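import Mathlib
import Cfsg.Agent.Lib.AlperinStrong.Main
import Cfsg.Agent.Lib.IsoTwo.Basic

/-!
# A `2`-element acting on a normal subgroup: isolation from the fusion theorem

`Y = G₀⟨c⟩`, `c` a `2`-element centralizing a Sylow `2`-subgroup `R` (to which it belongs).  If the
elements `g⁻¹ c g c⁻¹` have odd order for `g` normalizing the subgroups `P ≤ R ∩ G₀` that contain
all `2`-elements of their centralizer in `G₀`, then `c` is weakly closed in `R`, hence isolated,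
hence central modulo `O(Y)`.
-/

set_option autoImplicit false
set_option linter.style.haveILetI false
set_option linter.unusedSectionVars false

namespace Cfsg.Agent.Lib.AutSyl.Key

open Subgroup Cfsg

universe u

section basics

variable {Y : Type u} [Group Y]

/-- `2`-elements. -/
def TwoElt (x : Y) : Prop := ∃ k : ℕ, x ^ (2 ^ k) = 1

theorem TwoElt.conj {x : Y} (h : TwoElt x) (n : Y) : TwoElt (n * x * n⁻¹) := by
  obtain ⟨k, hk⟩ := h
  exact ⟨k, by rw [conj_pow, hk]; group⟩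

theorem TwoElt.orderOf {x : Y} (h : TwoElt x) : ∃ k : ℕ, orderOf x = 2 ^ k := by
  obtain ⟨k, hk⟩ := h
  obtain ⟨j, -, hj⟩ := (Nat.dvd_prime_pow Nat.prime_two).1 (orderOf_dvd_of_pow_eq_one hk)
  exact ⟨j, hj⟩

theorem TwoElt.isPGroup {x : Y} (h : TwoElt x) : IsPGroup 2 (zpowers x) := by
  haveI : Fact (Nat.Prime 2) := ⟨Nat.prime_two⟩
  obtain ⟨k, hk⟩ := h.orderOf
  apply IsPGroup.of_card (n := k)
  rw [Nat.card_zpowers, hk]

theorem twoElt_of_mem {V : Subgroup Y} (hV : IsPGroup 2 V) {x : Y} (hx : x ∈ V) : TwoElt x := by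
  obtain ⟨k, hk⟩ := hV ⟨x, hx⟩
  exact ⟨k, by simpa using congrArg Subtype.val hk⟩

theorem eq_one_of_two_of_odd {x : Y} (h : TwoElt x) (ho : Odd (_root_.orderOf x)) : x = 1 := by
  obtain ⟨k, hk⟩ := h.orderOf
  rw [hk] at ho
  rcases k with _ | k
  · rw [pow_zero] at hk
    exact orderOf_eq_one_iff.mp hk
  · rw [Nat.odd_iff] at ho
    rw [pow_succ] at ho
    omega

/-- A normal nontrivial subgroup of a finite `p`-group contains a nontrivial central element. -/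
theorem exists_central {Q : Type*} [Group Q] [Finite Q] {p : ℕ} [Fact p.Prime] (hQ : IsPGroup p Q)
    (A : Subgroup Q) [hA : A.Normal] (hne : A ≠ ⊥) : ∃ a ∈ A, a ≠ 1 ∧ ∀ q : Q, q * a * q⁻¹ = a := by
  classical
  letI act : MulAction Q A := MulAction.compHom A (MulAut.conjNormal (H := A))
  have hact : ∀ (q : Q) (a : A), ((q • a : A) : Q) = q * a * q⁻¹ := fun q a => rfl
  have h1 := hQ.card_modEq_card_fixedPoints A
  have h2 : p ∣ Nat.card A := by
    have hA2 : IsPGroup p A := IsPGroup.to_subgroup hQ A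
    haveI : Nontrivial A := (Subgroup.nontrivial_iff_ne_bot A).2 hne
    obtain ⟨n, hn⟩ := IsPGroup.iff_card.1 hA2
    rw [hn]
    rcases n with _ | n
    · exfalso
      have h9 := Finite.one_lt_card (α := A)
      rw [hn] at h9
      simp at h9
    · exact Dvd.intro_left _ (pow_succ p n).symm
  have h3 : p ∣ Nat.card (MulAction.fixedPoints Q A) := by
    have := (Nat.modEq_zero_iff_dvd.1 (h1.symm.trans (Nat.modEq_zero_iff_dvd.2 h2)))
    exact this
  have h4 : (1 : A) ∈ MulAction.fixedPoints Q A := by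
    intro q
    apply Subtype.ext
    rw [hact]
    simp
  have h5 : Nontrivial (MulAction.fixedPoints Q A) := by
    haveI : Finite (MulAction.fixedPoints Q A) := inferInstance
    haveI : Nonempty (MulAction.fixedPoints Q A) := ⟨⟨1, h4⟩⟩
    rw [← Finite.one_lt_card_iff_nontrivial]
    have h6 : 0 < Nat.card (MulAction.fixedPoints Q A) := Nat.card_pos
    exact lt_of_lt_of_le (Fact.out : p.Prime).one_lt (Nat.le_of_dvd h6 h3)
  obtain ⟨⟨a, ha⟩, hne1⟩ := exists_ne (⟨1, h4⟩ : MulAction.fixedPoints Q A)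
  refine ⟨a, a.2, ?_, fun q => ?_⟩
  · intro h
    apply hne1
    apply Subtype.ext
    apply Subtype.ext
    exact h
  · have := congrArg Subtype.val (ha q)
    rw [hact] at this
    exact this

variable [Finite Y]

/-- A central step in a `2`-group. -/
theorem exists_step {V K U : Subgroup Y} (hV : IsPGroup 2 V) (hUV : U ≤ V) (hKV : K ≤ V)
    (hKn : ∀ v ∈ V, ∀ k ∈ K, v * k * v⁻¹ ∈ K) (hUn : ∀ v ∈ V, ∀ k ∈ U, v * k * v⁻¹ ∈ U)
    (hne : ¬ U ≤ K) : ∃ t ∈ U, t ∉ K ∧ ∀ v ∈ V, v * t * v⁻¹ * t⁻¹ ∈ K := by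
  classical
  haveI : Fact (Nat.Prime 2) := ⟨Nat.prime_two⟩
  let K' : Subgroup V := K.subgroupOf V
  haveI hK' : K'.Normal := by
    refine ⟨fun k hk v => ?_⟩
    rw [mem_subgroupOf] at hk ⊢
    exact hKn v v.2 k hk
  let π := QuotientGroup.mk' K'
  let U' : Subgroup V := U.subgroupOf V
  haveI hU' : U'.Normal := by
    refine ⟨fun k hk v => ?_⟩
    rw [mem_subgroupOf] at hk ⊢
    exact hUn v v.2 k hk
  let A : Subgroup (V ⧸ K') := U'.map π
  haveI hA : A.Normal := hU'.map π (QuotientGroup.mk'_surjective K')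
  have hQ : IsPGroup 2 (V ⧸ K') := hV.to_quotient K'
  have hAne : A ≠ ⊥ := by
    intro h
    apply hne
    intro u hu
    have h1 : π ⟨u, hUV hu⟩ ∈ A := ⟨⟨u, hUV hu⟩, mem_subgroupOf.2 hu, rfl⟩
    rw [h, mem_bot] at h1
    have h2 := (QuotientGroup.eq_one_iff (⟨u, hUV hu⟩ : V)).1 h1
    exact mem_subgroupOf.1 h2
  obtain ⟨a, ⟨t, ht, rfl⟩, ha1, hac⟩ := exists_central hQ A hAne
  refine ⟨t, mem_subgroupOf.1 ht, ?_, fun v hv => ?_⟩
  · intro h
    apply ha1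
    exact (QuotientGroup.eq_one_iff t).2 (mem_subgroupOf.2 h)
  · have h1 := hac (π ⟨v, hv⟩)
    have h2 : π ((⟨v, hv⟩ : V) * t * (⟨v, hv⟩ : V)⁻¹ * t⁻¹) = 1 := by
      rw [map_mul, map_mul, map_mul, map_inv, map_inv, h1]
      simp
    have h3 := (QuotientGroup.eq_one_iff _).1 h2
    exact mem_subgroupOf.1 h3

/-- Conjugating a `2`-element into a `2`-subgroup of odd relative index. -/
theorem exists_conj (R M : Subgroup Y) (hR : IsPGroup 2 R) (tame : ¬ 2 ∣ (R ⊓ M).relIndex M) {t : Y}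
    (ht : TwoElt t) (htM : t ∈ M) : ∃ n ∈ M, n * t * n⁻¹ ∈ R := by
  classical
  haveI : Fact (Nat.Prime 2) := ⟨Nat.prime_two⟩
  let T : Subgroup M := (R ⊓ M).subgroupOf M
  have hT : IsPGroup 2 T := (hR.to_le inf_le_left).comap_subtype
  let P' : Sylow 2 M := hT.toSylow tame
  have hz : IsPGroup 2 (zpowers (⟨t, htM⟩ : M)) := by
    have : TwoElt (⟨t, htM⟩ : M) := by
      obtain ⟨k, hk⟩ := ht
      exact ⟨k, Subtype.ext (by simpa using hk)⟩
    exact this.isPGroup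
  obtain ⟨Q, hQ⟩ := hz.exists_le_sylow
  obtain ⟨n, hn⟩ := MulAction.exists_smul_eq M Q P'
  refine ⟨n, n.2, ?_⟩
  have h1 : (⟨t, htM⟩ : M) ∈ (Q : Subgroup M) := hQ (mem_zpowers _)
  have h2 : n * ⟨t, htM⟩ * n⁻¹ ∈ ((n • Q : Sylow 2 M) : Subgroup M) := by
    rw [Cfsg.Agent.Lib.AlperinStrong.Graph.mem_smul_iff]
    simpa [mul_assoc] using h1
  rw [hn] at h2
  have h3 : n * ⟨t, htM⟩ * n⁻¹ ∈ T := h2
  have h4 := mem_subgroupOf.1 h3
  exact h4.1

/-- A `2`-subgroup collecting all `2`-elements of `W` up to conjugacy, through a given one. -/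
theorem exists_sylow_in (W : Subgroup Y) {c : Y} (hc : c ∈ W) (h2 : TwoElt c) :
    ∃ V : Subgroup Y, V ≤ W ∧ IsPGroup 2 V ∧ c ∈ V ∧ ∀ x ∈ W, TwoElt x → ∃ m ∈ W, m * x * m⁻¹ ∈ V := by
  classical
  haveI : Fact (Nat.Prime 2) := ⟨Nat.prime_two⟩
  have hz : IsPGroup 2 (zpowers (⟨c, hc⟩ : W)) := by
    have : TwoElt (⟨c, hc⟩ : W) := by
      obtain ⟨k, hk⟩ := h2
      exact ⟨k, Subtype.ext (by simpa using hk)⟩
    exact this.isPGroup
  obtain ⟨Q, hQ⟩ := hz.exists_le_sylow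
  refine ⟨(Q : Subgroup W).map W.subtype, map_subtype_le _, ?_, ?_, ?_⟩
  · exact Q.isPGroup'.map W.subtype
  · exact ⟨⟨c, hc⟩, hQ (mem_zpowers _), rfl⟩
  · intro x hx hx2
    have hzx : IsPGroup 2 (zpowers (⟨x, hx⟩ : W)) := by
      have : TwoElt (⟨x, hx⟩ : W) := by
        obtain ⟨k, hk⟩ := hx2
        exact ⟨k, Subtype.ext (by simpa using hk)⟩
      exact this.isPGroup
    obtain ⟨Q', hQ'⟩ := hzx.exists_le_sylow
    obtain ⟨n, hn⟩ := MulAction.exists_smul_eq W Q' Q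
    refine ⟨n, n.2, ?_⟩
    have h1 : (⟨x, hx⟩ : W) ∈ (Q' : Subgroup W) := hQ' (mem_zpowers _)
    have h3 : n * ⟨x, hx⟩ * n⁻¹ ∈ ((n • Q' : Sylow 2 W) : Subgroup W) := by
      rw [Cfsg.Agent.Lib.AlperinStrong.Graph.mem_smul_iff]
      simpa [mul_assoc] using h1
    rw [hn] at h3
    exact ⟨_, h3, rfl⟩

end basics

section key

variable {Y : Type u} [Group Y] [Finite Y] {G₀ : Subgroup Y} {c : Y} {R : Subgroup Y}

/-- The hypotheses. -/
structure Setup (G₀ : Subgroup Y) (c : Y) (R : Subgroup Y) : Prop where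
  norm : G₀.Normal
  gen : ∀ y : Y, ∃ g ∈ G₀, ∃ j : ℤ, y = g * c ^ j
  pg : IsPGroup 2 R
  cmem : c ∈ R
  cent : ∀ r ∈ R, r * c = c * r
  odd : ∀ P : Subgroup Y, P ≤ G₀ → P ≤ R →
    (∀ x ∈ G₀, x ∈ centralizer (P : Set Y) → TwoElt x → x ∈ P) →
    ∀ g ∈ G₀, g ∈ normalizer (P : Set Y) → Odd (orderOf (g⁻¹ * c * g * c⁻¹))

theorem comm_mem (h : Setup G₀ c R) (y : Y) : y⁻¹ * c * y * c⁻¹ ∈ G₀ := by
  haveI := h.norm
  obtain ⟨g, hg, j, rfl⟩ := h.gen y
  have h1 : g⁻¹ * (c * g * c⁻¹) ∈ G₀ := mul_mem (inv_mem hg) (h.norm.conj_mem g hg c)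
  have h2 := h.norm.conj_mem _ h1 ((c ^ j)⁻¹)
  have e : (g * c ^ j)⁻¹ * c * (g * c ^ j) * c⁻¹ =
      (c ^ j)⁻¹ * (g⁻¹ * (c * g * c⁻¹)) * ((c ^ j)⁻¹)⁻¹ := by group
  rw [e]
  exact h2

theorem c_mem (h : Setup G₀ c R) {D : Subgroup Y} (hDR : D ≤ R)
    (cp : R ⊓ centralizer (D : Set Y) ≤ D) : c ∈ D :=
  cp ⟨h.cmem, mem_centralizer_iff.2 fun d hd => h.cent d (hDR hd)⟩

theorem decomp (h : Setup G₀ c R) {D : Subgroup Y} (hc : c ∈ D) {y : Y} (hy : y ∈ D) :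
    ∃ d ∈ D ⊓ G₀, ∃ j : ℤ, y = d * c ^ j := by
  obtain ⟨g, hg, j, rfl⟩ := h.gen y
  refine ⟨g, ⟨?_, hg⟩, j, rfl⟩
  have := mul_mem hy (inv_mem (zpow_mem hc j))
  simpa using this

theorem mem_of_cent {D : Subgroup Y} (hR : IsPGroup 2 R)
    (tame : ¬ 2 ∣ (R ⊓ normalizer (D : Set Y)).relIndex (normalizer (D : Set Y)))
    (cp : R ⊓ centralizer (D : Set Y) ≤ D) {x : Y} (hx2 : TwoElt x)
    (hxC : x ∈ centralizer (D : Set Y)) : x ∈ D := by
  have hcomm : ∀ d ∈ D, d * x = x * d := fun d hd => mem_centralizer_iff.1 hxC d hd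
  have hxN : x ∈ normalizer (D : Set Y) := by
    refine mem_normalizer_iff.2 fun d => ?_
    have e : d ∈ D → x * d * x⁻¹ = d := fun hd => by rw [← hcomm d hd]; group
    constructor
    · intro hd
      have hd' : d ∈ D := hd
      show x * d * x⁻¹ ∈ D
      rw [e hd']
      exact hd'
    · intro hd
      have hd' : x * d * x⁻¹ ∈ D := hd
      have h2 := hcomm _ hd'
      have h3 : d = x⁻¹ * (x * d * x⁻¹) * x := by group
      show d ∈ D
      have h4 : x⁻¹ * (x * d * x⁻¹) * x = x * d * x⁻¹ := by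
        rw [mul_assoc, h2]
        group
      rw [h3, h4]
      exact hd'
  obtain ⟨n, hn, hnR⟩ := exists_conj R _ hR tame hx2 hxN
  have h1 : n * x * n⁻¹ ∈ centralizer (D : Set Y) := by
    refine mem_centralizer_iff.2 fun d hd => ?_
    have h2 : n⁻¹ * d * n ∈ D := by
      have := (mem_normalizer_iff.1 (inv_mem hn) d).1 hd
      simpa using this
    have h3 := hcomm _ h2
    calc d * (n * x * n⁻¹) = n * ((n⁻¹ * d * n) * x) * n⁻¹ := by group
      _ = n * (x * (n⁻¹ * d * n)) * n⁻¹ := by rw [h3]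
      _ = n * x * n⁻¹ * d := by group
  have h2 : n * x * n⁻¹ ∈ D := cp ⟨hnR, h1⟩
  have h3 := (mem_normalizer_iff.1 (inv_mem hn) _).1 h2
  have e : n⁻¹ * (n * x * n⁻¹) * n⁻¹⁻¹ = x := by group
  rw [e] at h3
  exact h3

theorem conj_mem_of (h : Setup G₀ c R) {D : Subgroup Y} (hc : c ∈ D) {s : Y}
    (h1 : ∀ d ∈ D ⊓ G₀, s * d * s⁻¹ = d) (h2 : s * c * s⁻¹ ∈ D) {y : Y} (hy : y ∈ D) :
    s * y * s⁻¹ ∈ D := by
  obtain ⟨d, hd, j, rfl⟩ := decomp h hc hy
  have e : s * (d * c ^ j) * s⁻¹ = (s * d * s⁻¹) * (s * c * s⁻¹) ^ j := by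
    rw [conj_zpow]
    group
  rw [e, h1 d hd]
  exact mul_mem hd.1 (zpow_mem h2 j)

/-- The first claim: `D ∩ G₀` contains all `2`-elements of its centralizer in `G₀`. -/
theorem claim1 (h : Setup G₀ c R) {D : Subgroup Y} (hDR : D ≤ R)
    (tame : ¬ 2 ∣ (R ⊓ normalizer (D : Set Y)).relIndex (normalizer (D : Set Y)))
    (cp : R ⊓ centralizer (D : Set Y) ≤ D) {x : Y} (hxG : x ∈ G₀)
    (hxC : x ∈ centralizer ((D ⊓ G₀ : Subgroup Y) : Set Y)) (hx2 : TwoElt x) : x ∈ D ⊓ G₀ := by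
  haveI := h.norm
  have hcD := c_mem h hDR cp
  set D₀ : Subgroup Y := D ⊓ G₀ with hD₀
  have hD₀R : D₀ ≤ R := inf_le_left.trans hDR
  have hcW : c ∈ centralizer (D₀ : Set Y) :=
    mem_centralizer_iff.2 fun d hd => h.cent d (hD₀R hd)
  obtain ⟨V, hVW, hVp, hcV, hVsyl⟩ := exists_sylow_in (centralizer (D₀ : Set Y)) hcW
    (twoElt_of_mem h.pg h.cmem)
  have hVc : ∀ v ∈ V, ∀ d ∈ D₀, d * v = v * d := fun v hv d hd =>
    mem_centralizer_iff.1 (hVW hv) d hd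
  have hUD : V ⊓ G₀ ≤ D₀ := by
    by_contra hne
    obtain ⟨t, htU, htK, htc⟩ := exists_step (V := V) (K := V ⊓ D₀) (U := V ⊓ G₀) hVp inf_le_left
      inf_le_left
      (fun v hv k hk => by
        have e : v * k * v⁻¹ = k := by rw [← hVc v hv k hk.2]; group
        rw [e]
        exact hk)
      (fun v hv k hk => Subgroup.mem_inf.2 ⟨mul_mem (mul_mem hv hk.1) (inv_mem hv), h.norm.conj_mem k hk.2 v⟩)
      (fun hle => hne (hle.trans inf_le_right))
    have htW : t ∈ centralizer (D₀ : Set Y) := hVW htU.1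
    have ht2 : TwoElt t := twoElt_of_mem hVp htU.1
    have htd : ∀ d ∈ D₀, t * d * t⁻¹ = d := fun d hd => by
      rw [← hVc t htU.1 d hd]
      group
    have htd' : ∀ d ∈ D₀, t⁻¹ * d * t = d := fun d hd => by
      have := htd d hd
      calc t⁻¹ * d * t = t⁻¹ * (t * d * t⁻¹) * t := by rw [this]
        _ = d := by group
    have he := htc c hcV
    set e := c * t * c⁻¹ * t⁻¹ with hedef
    have heD₀ : e ∈ D₀ := he.2
    have h_t : t * c * t⁻¹ = e⁻¹ * c := by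
      rw [hedef]
      group
    have h_t' : t⁻¹ * c * t = e * c := by
      have h1 := htd' e heD₀
      calc t⁻¹ * c * t = t⁻¹ * e * t * c := by rw [hedef]; group
        _ = e * c := by rw [h1]
    have htN : t ∈ normalizer (D : Set Y) := by
      refine mem_normalizer_iff.2 fun y => ⟨fun hy => ?_, fun hy => ?_⟩
      · refine conj_mem_of h hcD htd ?_ hy
        rw [h_t]
        exact mul_mem (inv_mem heD₀.1) hcD
      · have h1 := conj_mem_of h hcD (s := t⁻¹) (fun d hd => by simpa using htd' d hd) (by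
          rw [inv_inv, h_t']
          exact mul_mem heD₀.1 hcD) hy
        have e1 : t⁻¹ * (t * y * t⁻¹) * t⁻¹⁻¹ = y := by group
        rw [e1] at h1
        exact h1
    obtain ⟨n, hnN, hnR⟩ := exists_conj R _ h.pg tame ht2 htN
    have hcomm := h.cent _ hnR
    have hc₁ : n⁻¹ * c * n ∈ D := by
      have := (mem_normalizer_iff.1 (inv_mem hnN) c).1 hcD
      simpa using this
    have htc₁ : t * (n⁻¹ * c * n) = (n⁻¹ * c * n) * t := by
      calc t * (n⁻¹ * c * n) = n⁻¹ * ((n * t * n⁻¹) * c) * n := by group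
        _ = n⁻¹ * (c * (n * t * n⁻¹)) * n := by rw [hcomm]
        _ = (n⁻¹ * c * n) * t := by group
    have he₁ : n⁻¹ * c * n * c⁻¹ ∈ D₀ := Subgroup.mem_inf.2 ⟨mul_mem hc₁ (inv_mem hcD), comm_mem h n⟩
    have hte₁ := hVc t htU.1 _ he₁
    have htcc : t * c = c * t := by
      have e2 : c = (n⁻¹ * c * n * c⁻¹)⁻¹ * (n⁻¹ * c * n) := by group
      have h3 : t * (n⁻¹ * c * n * c⁻¹)⁻¹ = (n⁻¹ * c * n * c⁻¹)⁻¹ * t := by
        calc t * (n⁻¹ * c * n * c⁻¹)⁻¹ =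
            (n⁻¹ * c * n * c⁻¹)⁻¹ * ((n⁻¹ * c * n * c⁻¹) * t) * (n⁻¹ * c * n * c⁻¹)⁻¹ := by group
          _ = (n⁻¹ * c * n * c⁻¹)⁻¹ * (t * (n⁻¹ * c * n * c⁻¹)) * (n⁻¹ * c * n * c⁻¹)⁻¹ := by
              rw [hte₁]
          _ = (n⁻¹ * c * n * c⁻¹)⁻¹ * t := by group
      calc t * c = t * ((n⁻¹ * c * n * c⁻¹)⁻¹ * (n⁻¹ * c * n)) := by rw [← e2]
        _ = (t * (n⁻¹ * c * n * c⁻¹)⁻¹) * (n⁻¹ * c * n) := by group
        _ = ((n⁻¹ * c * n * c⁻¹)⁻¹ * t) * (n⁻¹ * c * n) := by rw [h3]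
        _ = (n⁻¹ * c * n * c⁻¹)⁻¹ * (t * (n⁻¹ * c * n)) := by group
        _ = (n⁻¹ * c * n * c⁻¹)⁻¹ * ((n⁻¹ * c * n) * t) := by rw [htc₁]
        _ = ((n⁻¹ * c * n * c⁻¹)⁻¹ * (n⁻¹ * c * n)) * t := by group
        _ = c * t := by rw [← e2]
    have htC : t ∈ centralizer (D : Set Y) := by
      refine mem_centralizer_iff.2 fun y hy => ?_
      obtain ⟨d, hd, j, rfl⟩ := decomp h hcD hy
      have h5 : Commute t (c ^ j) := (show Commute t c from htcc).zpow_right j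
      have h6 := hVc t htU.1 d hd
      calc d * c ^ j * t = d * (c ^ j * t) := by group
        _ = d * (t * c ^ j) := by rw [h5.eq]
        _ = (d * t) * c ^ j := by group
        _ = (t * d) * c ^ j := by rw [h6]
        _ = t * (d * c ^ j) := by group
    have htD : t ∈ D := mem_of_cent h.pg tame cp ht2 htC
    exact htK ⟨htU.1, htD, htU.2⟩
  obtain ⟨m, hm, hmV⟩ := hVsyl x hxC hx2
  have h1 : m * x * m⁻¹ ∈ D₀ := hUD ⟨hmV, h.norm.conj_mem x hxG m⟩
  have h2 := mem_centralizer_iff.1 hm _ h1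
  have e : x = m * x * m⁻¹ := by
    have h3 : m⁻¹ * (m * x * m⁻¹ * m) = m⁻¹ * (m * (m * x * m⁻¹)) := by rw [h2]
    have e1 : m⁻¹ * (m * x * m⁻¹ * m) = x := by group
    have e2 : m⁻¹ * (m * (m * x * m⁻¹)) = m * x * m⁻¹ := by group
    rw [e1, e2] at h3
    exact h3
  rw [e]
  exact h1

/-- The second claim: the normalizer of `D` centralizes `c`. -/
theorem claim2 (h : Setup G₀ c R) {D : Subgroup Y} (hDR : D ≤ R)
    (tame : ¬ 2 ∣ (R ⊓ normalizer (D : Set Y)).relIndex (normalizer (D : Set Y)))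
    (cp : R ⊓ centralizer (D : Set Y) ≤ D) {y : Y} (hy : y ∈ normalizer (D : Set Y)) :
    y * c * y⁻¹ = c := by
  haveI := h.norm
  have hcD := c_mem h hDR cp
  obtain ⟨g, hg, j, hj⟩ := h.gen y⁻¹
  have hgN : g ∈ normalizer (D : Set Y) := by
    have h1 : g = y⁻¹ * (c ^ j)⁻¹ := by rw [hj]; group
    rw [h1]
    refine mul_mem (inv_mem hy) (inv_mem (zpow_mem ?_ j))
    exact le_normalizer hcD
  have hgN₀ : g ∈ normalizer ((D ⊓ G₀ : Subgroup Y) : Set Y) := by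
    refine mem_normalizer_iff.2 fun z => ⟨fun hz => ?_, fun hz => ?_⟩
    · exact ⟨(mem_normalizer_iff.1 hgN z).1 hz.1, h.norm.conj_mem z hz.2 g⟩
    · have h1 : g * z * g⁻¹ ∈ D := hz.1
      have h2 : g * z * g⁻¹ ∈ G₀ := hz.2
      refine ⟨(mem_normalizer_iff.1 hgN z).2 h1, ?_⟩
      have h3 := h.norm.conj_mem _ h2 g⁻¹
      have e : g⁻¹ * (g * z * g⁻¹) * g⁻¹⁻¹ = z := by group
      rw [e] at h3
      exact h3
  have hw := h.odd (D ⊓ G₀) inf_le_right (inf_le_left.trans hDR)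
    (fun x hx hxC hx2 => claim1 h hDR tame cp hx hxC hx2) g hg hgN₀
  have hw1 : g⁻¹ * c * g ∈ D := by
    have := (mem_normalizer_iff.1 (inv_mem hgN) c).1 hcD
    simpa using this
  have hwR : g⁻¹ * c * g * c⁻¹ ∈ R := hDR (mul_mem hw1 (inv_mem hcD))
  have hw2 := eq_one_of_two_of_odd (twoElt_of_mem h.pg hwR) hw
  have hw3 : g⁻¹ * c * g = c := by
    have := congrArg (fun z => z * c) hw2
    simpa using this
  have hy' : y = (c ^ j)⁻¹ * g⁻¹ := by
    have : y = (y⁻¹)⁻¹ := by simp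
    rw [this, hj]
    group
  rw [hy']
  have e : (c ^ j)⁻¹ * g⁻¹ * c * ((c ^ j)⁻¹ * g⁻¹)⁻¹ = (c ^ j)⁻¹ * (g⁻¹ * c * g) * c ^ j := by group
  rw [e, hw3]
  group

/-- `c` is weakly closed in `R`. -/
theorem weak [Fact (Nat.Prime 2)] (h : Setup G₀ c R) (hRs : ¬ 2 ∣ R.index) {g : Y}
    (hg : g⁻¹ * c * g ∈ R) : g⁻¹ * c * g = c := by
  classical
  let R' : Sylow 2 Y := h.pg.toSylow hRs
  have hR' : (R' : Subgroup Y) = R := rfl
  obtain ⟨n, H, X, x, c', y, hc', hy, he, hall⟩ :=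
    Cfsg.Agent.Lib.AlperinStrong.Main.strong_fin (P := R') {c} g
      (by simpa [hR'] using h.cmem) (by simpa [hR'] using hg)
  have hcc : ∀ z : Y, z * c * z⁻¹ = c → z ∈ centralizer ({c} : Set Y) := by
    intro z hz
    refine mem_centralizer_iff.2 fun d hd => ?_
    rw [Set.mem_singleton_iff.1 hd]
    calc c * z = z * c * z⁻¹ * z := by rw [hz]
      _ = z * c := by group
  have hx : ∀ i, x i ∈ centralizer ({c} : Set Y) := by
    intro i
    obtain ⟨hE, hxi, -⟩ := hall i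
    refine hcc _ (claim2 h hE.le hE.tame hE.cp ?_)
    obtain ⟨w, hw, hwe⟩ := hxi
    rw [← hwe]
    exact hE.Xle w.2
  have hprod : (List.ofFn x).prod ∈ centralizer ({c} : Set Y) := by
    refine list_prod_mem fun z hz => ?_
    obtain ⟨i, rfl⟩ := (List.mem_ofFn' x z).1 hz
    exact hx i
  have hy' : y ∈ centralizer ({c} : Set Y) := by
    refine hcc _ (claim2 h le_rfl ?_ inf_le_left hy)
    rw [hR'] at *
    intro hd
    apply hRs
    have h1 : R ⊓ normalizer (R : Set Y) = R := inf_eq_left.2 le_normalizer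
    rw [h1] at hd
    rw [← relIndex_mul_index (le_normalizer (H := R))]
    exact hd.mul_right _
  have hgc : g ∈ centralizer ({c} : Set Y) := by
    rw [he]
    exact mul_mem (mul_mem hc' hprod) hy'
  have := mem_centralizer_iff.1 hgc c rfl
  calc g⁻¹ * c * g = g⁻¹ * (c * g) := by group
    _ = g⁻¹ * (g * c) := by rw [this]
    _ = c := by group

/-- `c` is isolated. -/
theorem isol [Fact (Nat.Prime 2)] (h : Setup G₀ c R) (hRs : ¬ 2 ∣ R.index) :
    Cfsg.Agent.Lib.IsoTwo.Isol c := by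
  classical
  intro g hcomm
  have h2 : TwoElt (g * c * g⁻¹) := (twoElt_of_mem h.pg h.cmem).conj g
  have hRC : R ≤ centralizer ({c} : Set Y) := fun r hr =>
    mem_centralizer_iff.2 fun d hd => by
      rw [Set.mem_singleton_iff.1 hd]
      exact (h.cent r hr).symm
  have htame : ¬ 2 ∣ (R ⊓ centralizer ({c} : Set Y)).relIndex (centralizer ({c} : Set Y)) := by
    rw [inf_eq_left.2 hRC]
    intro hd
    apply hRs
    have h3 := relIndex_mul_index hRC
    rw [← h3]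
    exact hd.mul_right _
  have hm : g * c * g⁻¹ ∈ centralizer ({c} : Set Y) :=
    mem_centralizer_iff.2 fun d hd => by
      rw [Set.mem_singleton_iff.1 hd]
      exact hcomm.eq.symm
  obtain ⟨m, hmC, hmR⟩ := exists_conj R _ h.pg htame h2 hm
  have hw := weak h hRs (g := (m * g)⁻¹) (by
    have e : ((m * g)⁻¹)⁻¹ * c * (m * g)⁻¹ = m * (g * c * g⁻¹) * m⁻¹ := by group
    rw [e]
    exact hmR)
  have hmc := mem_centralizer_iff.1 hmC c rfl
  have e : ((m * g)⁻¹)⁻¹ * c * (m * g)⁻¹ = m * (g * c * g⁻¹) * m⁻¹ := by group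
  rw [e] at hw
  calc g * c * g⁻¹ = m⁻¹ * (m * (g * c * g⁻¹) * m⁻¹) * m := by group
    _ = m⁻¹ * (c * m) := by rw [hw]; group
    _ = m⁻¹ * (m * c) := by rw [hmc]
    _ = c := by group

/-- `c` is central modulo `O(Y)`. -/
theorem comm_core [Fact (Nat.Prime 2)] (h : Setup G₀ c R) (hRs : ¬ 2 ∣ R.index) (g : Y) :
    g * c * g⁻¹ * c⁻¹ ∈ pPrimeCore 2 Y :=
  Cfsg.Agent.Lib.IsoTwo.comm_core_of_isolated (Nat.card Y) Y rfl c
    ((twoElt_of_mem h.pg h.cmem).orderOf) (isol h hRs) g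

end key

end Cfsg.Agent.Lib.AutSyl.Key
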