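import Mathlib
import Cfsg.Agent.Lib.AutSyl.Key

/-!
# The abelian quotient of the automorphisms centralizing a Sylow subgroup

For `P ≤ S` containing all `2`-elements of `C_G(P)`, the `M`-th power map (`M` the odd part of `|G|`)
is a homomorphism on `C_G(P)`, so that `u ↦ (g⁻¹ u(g))^M` is a homomorphism from the group of
automorphisms fixing `S` pointwise to an abelian `2`-group, for `g ∈ N_G(P)`.
-/

set_option autoImplicit false
set_option linter.style.haveILetI false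
set_option linter.unusedSectionVars false

namespace Cfsg.Agent.Lib.AutSyl.Lambda

open Subgroup Cfsg Cfsg.Agent.Lib.AutSyl.Key

universe u

/-- Schur's transfer, for a group whose `2`-elements are central. -/
theorem pow_mul_of_central {K : Type*} [Group K] [Finite K]
    (hK : ∀ x : K, TwoElt x → x ∈ center K) {M v : ℕ} (hM : Odd M) (hc : Nat.card K ∣ 2 ^ v * M)
    (a b : K) : (a * b) ^ M = a ^ M * b ^ M := by
  classical
  haveI : Fact (Nat.Prime 2) := ⟨Nat.prime_two⟩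
  obtain ⟨T⟩ : Nonempty (Sylow 2 K) := inferInstance
  have hT : (T : Subgroup K) ≤ center K := fun x hx => hK x (twoElt_of_mem T.isPGroup' hx)
  have h1 : ¬ 2 ∣ (center K).index := fun h => T.not_dvd_index (h.trans (index_dvd_of_le hT))
  have h2 : (center K).index ∣ 2 ^ v * M := (index_dvd_card _).trans hc
  have h3 : Nat.Coprime (center K).index (2 ^ v) := by
    apply Nat.Coprime.pow_right
    exact ((Nat.Prime.coprime_iff_not_dvd Nat.prime_two).2 h1).symm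
  obtain ⟨r, hr⟩ := h3.dvd_of_dvd_mul_left h2
  have h4 : (a * b) ^ (center K).index = a ^ (center K).index * b ^ (center K).index := by
    have h5 : ((MonoidHom.transferCenterPow K (a * b) : center K) : K) =
        (MonoidHom.transferCenterPow K a * MonoidHom.transferCenterPow K b : center K) := by
      rw [map_mul]
    rw [MonoidHom.transferCenterPow_apply, Subgroup.coe_mul, MonoidHom.transferCenterPow_apply,
      MonoidHom.transferCenterPow_apply] at h5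
    exact h5
  have h6 : Commute (a ^ (center K).index) (b ^ (center K).index) := by
    have h7 : a ^ (center K).index ∈ center K := (MonoidHom.transferCenterPow K a).2
    exact (Subgroup.mem_center_iff.1 h7 _).symm
  rw [hr, pow_mul, pow_mul, pow_mul, h4, h6.mul_pow]

variable {G : Type u} [Group G] [Finite G]

/-- The admissible subgroups. -/
def Adm (S P : Subgroup G) : Prop :=
  P ≤ S ∧ ∀ x ∈ centralizer (P : Set G), TwoElt x → x ∈ P

section lam

variable {S P : Subgroup G} {M v : ℕ}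

theorem pow_mem_of_adm (hA : Adm S P) (hG : Nat.card G = 2 ^ v * M) {x : G}
    (hx : x ∈ centralizer (P : Set G)) : x ^ M ∈ P := by
  refine hA.2 _ (pow_mem hx M) ⟨v, ?_⟩
  rw [← pow_mul, mul_comm, ← hG]
  exact pow_card_eq_one'

theorem mul_pow_of_adm (hA : Adm S P) (hG : Nat.card G = 2 ^ v * M) (hM : Odd M) {a b : G}
    (ha : a ∈ centralizer (P : Set G)) (hb : b ∈ centralizer (P : Set G)) :
    (a * b) ^ M = a ^ M * b ^ M := by
  have hcent : ∀ x : ↥(centralizer (P : Set G)), TwoElt x → x ∈ center ↥(centralizer (P : Set G)) := by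
    intro x hx
    have hxP : (x : G) ∈ P := by
      refine hA.2 _ x.2 ?_
      obtain ⟨k, hk⟩ := hx
      exact ⟨k, by simpa using congrArg Subtype.val hk⟩
    refine Subgroup.mem_center_iff.2 fun y => ?_
    apply Subtype.ext
    exact (mem_centralizer_iff.1 y.2 x hxP).symm
  have h1 : Nat.card ↥(centralizer (P : Set G)) ∣ 2 ^ v * M := by
    rw [← hG]
    exact card_subgroup_dvd_card _
  have := pow_mul_of_central hcent hM h1 ⟨a, ha⟩ ⟨b, hb⟩
  simpa using congrArg Subtype.val this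

variable {u₁ u₂ : MulAut G} {g : G}

theorem w_mem (hA : Adm S P) (hu : ∀ s ∈ S, u₁ s = s) (hg : g ∈ normalizer (P : Set G)) :
    g⁻¹ * u₁ g ∈ centralizer (P : Set G) := by
  refine mem_centralizer_iff.2 fun p hp => ?_
  have h1 : g * p * g⁻¹ ∈ P := (mem_normalizer_iff.1 hg p).1 hp
  have h2 : u₁ (g * p * g⁻¹) = g * p * g⁻¹ := hu _ (hA.1 h1)
  have h3 : u₁ p = p := hu _ (hA.1 hp)
  rw [map_mul, map_mul, map_inv, h3] at h2
  have h4 : u₁ g * p = g * p * g⁻¹ * u₁ g := by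
    rw [← h2]
    group
  calc p * (g⁻¹ * u₁ g) = g⁻¹ * (g * p * g⁻¹ * u₁ g) := by group
    _ = g⁻¹ * (u₁ g * p) := by rw [h4]
    _ = g⁻¹ * u₁ g * p := by group

theorem map_cent (hA : Adm S P) (hu : ∀ s ∈ S, u₁ s = s) {x : G}
    (hx : x ∈ centralizer (P : Set G)) : u₁ x ∈ centralizer (P : Set G) := by
  refine mem_centralizer_iff.2 fun p hp => ?_
  have h1 := mem_centralizer_iff.1 hx p hp
  have h3 : u₁ p = p := hu _ (hA.1 hp)
  have h4 := congrArg u₁ h1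
  rwa [map_mul, map_mul, h3] at h4

/-- The homomorphism property. -/
theorem lam_mul (hA : Adm S P) (hG : Nat.card G = 2 ^ v * M) (hM : Odd M) (hu₁ : ∀ s ∈ S, u₁ s = s)
    (hu₂ : ∀ s ∈ S, u₂ s = s) (hg : g ∈ normalizer (P : Set G)) :
    (g⁻¹ * (u₁ * u₂) g) ^ M = (g⁻¹ * u₁ g) ^ M * (g⁻¹ * u₂ g) ^ M := by
  have h1 := w_mem hA hu₁ hg
  have h2 := w_mem hA hu₂ hg
  have h3 := map_cent hA hu₁ h2
  have e : g⁻¹ * (u₁ * u₂) g = (g⁻¹ * u₁ g) * u₁ (g⁻¹ * u₂ g) := by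
    rw [map_mul, map_inv, MulAut.mul_apply]
    group
  rw [e, mul_pow_of_adm hA hG hM h1 h3, ← map_pow]
  rw [hu₁ _ (hA.1 (pow_mem_of_adm hA hG h2))]

theorem lam_comm (hA : Adm S P) (hG : Nat.card G = 2 ^ v * M) (hu₁ : ∀ s ∈ S, u₁ s = s)
    (hu₂ : ∀ s ∈ S, u₂ s = s) (hg : g ∈ normalizer (P : Set G)) :
    (g⁻¹ * u₁ g) ^ M * (g⁻¹ * u₂ g) ^ M = (g⁻¹ * u₂ g) ^ M * (g⁻¹ * u₁ g) ^ M := by
  have h1 := w_mem hA hu₁ hg
  have h2 := w_mem hA hu₂ hg
  have h3 := pow_mem_of_adm hA hG h1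
  exact mem_centralizer_iff.1 (pow_mem h2 M) _ h3

end lam

section N

variable {S : Subgroup G} {C : Subgroup (MulAut G)} {M v : ℕ}

/-- The kernel of the power maps. -/
def kerN (S : Subgroup G) (C : Subgroup (MulAut G)) (hC : ∀ u ∈ C, ∀ s ∈ S, u s = s) (M v : ℕ)
    (hG : Nat.card G = 2 ^ v * M) (hM : Odd M) : Subgroup ↥C where
  carrier := {u | ∀ P, Adm S P → ∀ g ∈ normalizer (P : Set G), (g⁻¹ * (u : MulAut G) g) ^ M = 1}
  one_mem' := by
    intro P _ g _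
    simp
  mul_mem' := by
    intro a b ha hb P hA g hg
    show (g⁻¹ * ((a : MulAut G) * (b : MulAut G)) g) ^ M = 1
    rw [lam_mul hA hG hM (hC a a.2) (hC b b.2) hg, ha P hA g hg, hb P hA g hg, one_mul]
  inv_mem' := by
    intro a ha P hA g hg
    have h1 := lam_mul hA hG hM (hC a a.2) (hC _ (inv_mem a.2)) hg
    rw [ha P hA g hg, one_mul, mul_inv_cancel] at h1
    show (g⁻¹ * ((a : MulAut G))⁻¹ g) ^ M = 1
    rw [← h1]
    simp

theorem mem_kerN {hC : ∀ u ∈ C, ∀ s ∈ S, u s = s} {hG : Nat.card G = 2 ^ v * M} {hM : Odd M}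
    {u : ↥C} : u ∈ kerN S C hC M v hG hM ↔
      ∀ P, Adm S P → ∀ g ∈ normalizer (P : Set G), (g⁻¹ * (u : MulAut G) g) ^ M = 1 := Iff.rfl

theorem lam_inv {hC : ∀ u ∈ C, ∀ s ∈ S, u s = s} (hG : Nat.card G = 2 ^ v * M) (hM : Odd M)
    {a : MulAut G} (ha : a ∈ C) {P : Subgroup G} (hA : Adm S P) {g : G}
    (hg : g ∈ normalizer (P : Set G)) :
    (g⁻¹ * a g) ^ M * (g⁻¹ * a⁻¹ g) ^ M = 1 := by
  have h1 := lam_mul hA hG hM (hC a ha) (hC _ (inv_mem ha)) hg
  rw [← h1, mul_inv_cancel]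
  simp

theorem kerN_normal (hC : ∀ u ∈ C, ∀ s ∈ S, u s = s) (hG : Nat.card G = 2 ^ v * M) (hM : Odd M) :
    (kerN S C hC M v hG hM).Normal := by
  refine ⟨fun n hn c P hA g hg => ?_⟩
  show (g⁻¹ * ((c : MulAut G) * (n : MulAut G) * (c : MulAut G)⁻¹) g) ^ M = 1
  rw [lam_mul hA hG hM (hC _ (mul_mem c.2 n.2)) (hC _ (inv_mem c.2)) hg,
    lam_mul hA hG hM (hC _ c.2) (hC _ n.2) hg, hn P hA g hg, mul_one]
  exact lam_inv (hC := hC) hG hM c.2 hA hg

theorem comm_mem_kerN (hC : ∀ u ∈ C, ∀ s ∈ S, u s = s) (hG : Nat.card G = 2 ^ v * M) (hM : Odd M)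
    (a b : ↥C) : a * b * a⁻¹ * b⁻¹ ∈ kerN S C hC M v hG hM := by
  intro P hA g hg
  show (g⁻¹ * ((a : MulAut G) * (b : MulAut G) * (a : MulAut G)⁻¹ * (b : MulAut G)⁻¹) g) ^ M = 1
  have ha := hC _ a.2
  have hb := hC _ b.2
  have ha' := hC _ (inv_mem a.2)
  have hb' := hC _ (inv_mem b.2)
  have hab := hC _ (mul_mem a.2 b.2)
  have haba := hC _ (mul_mem (mul_mem a.2 b.2) (inv_mem a.2))
  rw [lam_mul hA hG hM haba hb' hg, lam_mul hA hG hM hab ha' hg, lam_mul hA hG hM ha hb hg]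
  have h1 := lam_comm hA hG hb ha' hg
  calc _ = (g⁻¹ * (a : MulAut G) g) ^ M * ((g⁻¹ * (b : MulAut G) g) ^ M *
        (g⁻¹ * ((a : MulAut G))⁻¹ g) ^ M) * (g⁻¹ * ((b : MulAut G))⁻¹ g) ^ M := by group
    _ = (g⁻¹ * (a : MulAut G) g) ^ M * ((g⁻¹ * ((a : MulAut G))⁻¹ g) ^ M *
        (g⁻¹ * (b : MulAut G) g) ^ M) * (g⁻¹ * ((b : MulAut G))⁻¹ g) ^ M := by rw [h1]
    _ = ((g⁻¹ * (a : MulAut G) g) ^ M * (g⁻¹ * ((a : MulAut G))⁻¹ g) ^ M) *
        ((g⁻¹ * (b : MulAut G) g) ^ M * (g⁻¹ * ((b : MulAut G))⁻¹ g) ^ M) := by group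
    _ = 1 := by
      rw [lam_inv (hC := hC) hG hM a.2 hA hg, lam_inv (hC := hC) hG hM b.2 hA hg, one_mul]

theorem pow_mem_kerN (hC : ∀ u ∈ C, ∀ s ∈ S, u s = s) (hG : Nat.card G = 2 ^ v * M) (hM : Odd M)
    (a : ↥C) : a ^ (2 ^ v) ∈ kerN S C hC M v hG hM := by
  intro P hA g hg
  have hn : ∀ n : ℕ, (g⁻¹ * ((a : MulAut G) ^ n) g) ^ M = ((g⁻¹ * (a : MulAut G) g) ^ M) ^ n := by
    intro n
    induction n with
    | zero => simp
    | succ n ih =>
      rw [pow_succ, lam_mul hA hG hM (hC _ (pow_mem a.2 n)) (hC _ a.2) hg, ih, pow_succ]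
  have h1 := hn (2 ^ v)
  have h2 : ((a ^ 2 ^ v : ↥C) : MulAut G) = (a : MulAut G) ^ 2 ^ v := rfl
  rw [h2, h1, ← pow_mul, mul_comm, ← hG]
  exact pow_card_eq_one'

theorem odd_of_mem_kerN {hC : ∀ u ∈ C, ∀ s ∈ S, u s = s} {hG : Nat.card G = 2 ^ v * M} {hM : Odd M}
    {u : ↥C} (hu : u ∈ kerN S C hC M v hG hM) {P : Subgroup G} (hA : Adm S P) {g : G}
    (hg : g ∈ normalizer (P : Set G)) : Odd (orderOf (g⁻¹ * (u : MulAut G) g)) :=
  Odd.of_dvd_nat hM (orderOf_dvd_of_pow_eq_one (hu P hA g hg))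

end N

end Cfsg.Agent.Lib.AutSyl.Lambda
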