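import Mathlib
import Cfsg.Agent.Lib.AutSyl.Lambda
import Cfsg.Agent.Lib.ZStar.Cor

/-!
# The semidirect product: `2`-elements in the kernel are trivial
-/

set_option autoImplicit false
set_option linter.style.haveILetI false
set_option linter.unusedSectionVars false

namespace Cfsg.Agent.Lib.AutSyl.Semi

open Subgroup Cfsg Cfsg.Agent.Lib.AutSyl.Key Cfsg.Agent.Lib.AutSyl.Lambda SemidirectProduct

universe u

variable {G : Type u} [Group G] [Finite G]

theorem eq_one_of_odd (hO : ∀ N : Subgroup G, N.Normal → Odd (Nat.card N) → N = ⊥) (S : Sylow 2 G)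
    (u : MulAut G) (hu : ∀ s ∈ (S : Subgroup G), u s = s) (h2 : TwoElt u)
    (hodd : ∀ P, Adm (S : Subgroup G) P → ∀ g ∈ normalizer (P : Set G),
      Odd (orderOf (g⁻¹ * u g))) : u = 1 := by
  classical
  haveI : Fact (Nat.Prime 2) := ⟨Nat.prime_two⟩
  haveI : Finite (MulAut G) := inferInstance
  let φ : ↥(zpowers u) →* MulAut G := (zpowers u).subtype
  haveI : Finite (G ⋊[φ] ↥(zpowers u)) := Finite.of_equiv _ SemidirectProduct.equivProd.symm
  let u' : ↥(zpowers u) := ⟨u, mem_zpowers u⟩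
  let c : G ⋊[φ] ↥(zpowers u) := inr u'
  have hcl : ∀ x, (c * inl x * c⁻¹) = inl (u x) := by
    intro x
    have := inl_aut (φ := φ) u' x
    rw [map_inv] at this
    exact this.symm
  have hz : ∀ h : ↥(zpowers u), ∃ j : ℤ, h = u' ^ j := by
    rintro ⟨h, j, rfl⟩
    exact ⟨j, Subtype.ext (by simp [u'])⟩
  have hcomm : ∀ a b : ↥(zpowers u), a * b = b * a := by
    intro a b
    obtain ⟨i, rfl⟩ := hz a
    obtain ⟨j, rfl⟩ := hz b
    exact (Commute.refl u').zpow_zpow i j
  have hfix : ∀ h : ↥(zpowers u), ∀ s ∈ (S : Subgroup G), φ h s = s := by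
    let F : Subgroup (MulAut G) :=
      { carrier := {a | ∀ s ∈ (S : Subgroup G), a s = s}
        one_mem' := fun s _ => rfl
        mul_mem' := fun {a b} ha hb s hs => by
          show a (b s) = s
          rw [hb s hs, ha s hs]
        inv_mem' := fun {a} ha s hs => by
          have h3 := ha s hs
          show a.symm s = s
          conv_lhs => rw [← h3]
          simp }
    have hF : zpowers u ≤ F := (zpowers_le).2 hu
    intro h s hs
    exact hF h.2 s hs
  -- the `2`-subgroup
  let R₁ : Subgroup (G ⋊[φ] ↥(zpowers u)) :=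
    { carrier := {y | y.left ∈ (S : Subgroup G)}
      one_mem' := (show (1 : G) ∈ (S : Subgroup G) from one_mem _)
      mul_mem' := fun {a b} ha hb => by
        show a.left * φ a.right b.left ∈ (S : Subgroup G)
        rw [hfix _ _ hb]
        exact mul_mem ha hb
      inv_mem' := fun {a} ha => by
        show φ a.right⁻¹ a.left⁻¹ ∈ (S : Subgroup G)
        rw [hfix _ _ (inv_mem ha)]
        exact inv_mem ha }
  have hR₁ : ∀ y, y ∈ R₁ ↔ y.left ∈ (S : Subgroup G) := fun y => Iff.rfl
  have hcommR : ∀ y ∈ R₁, Commute (inl y.left : G ⋊[φ] ↥(zpowers u)) (inr y.right) := by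
    intro y hy
    ext
    · simp [hfix _ _ ((hR₁ y).1 hy)]
    · simp
  have hR₁p : IsPGroup 2 R₁ := by
    rintro ⟨y, hy⟩
    obtain ⟨a, ha⟩ := S.isPGroup' ⟨y.left, hy⟩
    obtain ⟨b, hb⟩ := h2
    have ha' : y.left ^ 2 ^ a = 1 := by simpa using congrArg Subtype.val ha
    have hb' : y.right ^ 2 ^ b = 1 := by
      obtain ⟨j, hj⟩ := hz y.right
      rw [hj, ← zpow_natCast, ← zpow_mul, mul_comm, zpow_mul, zpow_natCast]
      have : u' ^ 2 ^ b = 1 := Subtype.ext (by simpa [u'] using hb)
      rw [this, one_zpow]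
    refine ⟨a + b, Subtype.ext ?_⟩
    show y ^ 2 ^ (a + b) = 1
    have e := inl_left_mul_inr_right y
    rw [← e, (hcommR y hy).mul_pow, ← map_pow, ← map_pow, pow_add 2 a b, pow_mul, ha',
      mul_comm (2 ^ a) (2 ^ b), pow_mul, hb']
    simp
  obtain ⟨R, hR₁R⟩ := hR₁p.exists_le_sylow
  have hRle : (R : Subgroup (G ⋊[φ] ↥(zpowers u))) ≤ R₁ := by
    intro r hr
    have hA : IsPGroup 2 ((R : Subgroup (G ⋊[φ] ↥(zpowers u))).comap
        (inl : G →* G ⋊[φ] ↥(zpowers u))) :=
      R.isPGroup'.comap_of_injective _ inl_injective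
    have hle : (S : Subgroup G) ≤ (R : Subgroup (G ⋊[φ] ↥(zpowers u))).comap
        (inl : G →* G ⋊[φ] ↥(zpowers u)) := fun s hs => hR₁R (show (inl s).left ∈ _ from hs)
    have heq := S.is_maximal' hA hle
    have hrr : inr r.right ∈ R₁ := one_mem (S : Subgroup G)
    have h3 : inl r.left = r * (inr r.right)⁻¹ := by
      have e := inl_left_mul_inr_right r
      calc inl r.left = inl r.left * inr r.right * (inr r.right)⁻¹ := by group
        _ = _ := by rw [e]
    have h4 : (inl r.left : G ⋊[φ] ↥(zpowers u)) ∈ (R : Subgroup (G ⋊[φ] ↥(zpowers u))) := by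
      rw [h3]
      exact mul_mem hr (inv_mem (hR₁R hrr))
    have h5 : r.left ∈ (R : Subgroup (G ⋊[φ] ↥(zpowers u))).comap
        (inl : G →* G ⋊[φ] ↥(zpowers u)) := h4
    rw [heq] at h5
    exact h5
  have hset : Setup (inl : G →* G ⋊[φ] ↥(zpowers u)).range c (R : Subgroup (G ⋊[φ] ↥(zpowers u))) := by
    refine ⟨?_, ?_, R.isPGroup', hR₁R (one_mem (S : Subgroup G)), ?_, ?_⟩
    · rw [range_inl_eq_ker_rightHom]
      infer_instance
    · intro y
      obtain ⟨j, hj⟩ := hz y.right
      refine ⟨inl y.left, ⟨_, rfl⟩, j, ?_⟩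
      have e := inl_left_mul_inr_right y
      rw [hj, map_zpow] at e
      exact e.symm
    · intro r hr
      have hrS := hRle hr
      refine SemidirectProduct.ext ?_ ?_
      · show r.left * φ r.right 1 = 1 * u r.left
        rw [map_one, mul_one, one_mul, hu _ hrS]
      · show r.right * u' = u' * r.right
        exact hcomm _ _
    · rintro P hPG hPR hcond _ ⟨g, rfl⟩ hgN
      let P' : Subgroup G := P.comap (inl : G →* G ⋊[φ] ↥(zpowers u))
      have hP' : ∀ x, x ∈ P' ↔ (inl x : G ⋊[φ] ↥(zpowers u)) ∈ P := fun x => Iff.rfl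
      have hAdm : Adm (S : Subgroup G) P' := by
        refine ⟨fun x hx => ?_, fun x hxC hx2 => ?_⟩
        · exact hRle (hPR ((hP' x).1 hx))
        · rw [hP']
          refine hcond _ ⟨x, rfl⟩ ?_ ?_
          · refine mem_centralizer_iff.2 fun y hy => ?_
            obtain ⟨p, rfl⟩ := hPG hy
            have h3 := mem_centralizer_iff.1 hxC p ((hP' p).2 hy)
            rw [← map_mul, ← map_mul, h3]
          · obtain ⟨k, hk⟩ := hx2
            exact ⟨k, by rw [← map_pow, hk, map_one]⟩
      have hg' : g ∈ normalizer (P' : Set G) := by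
        refine mem_normalizer_iff.2 fun x => ?_
        have h3 := mem_normalizer_iff.1 hgN (inl x)
        have e : (inl g : G ⋊[φ] ↥(zpowers u)) * inl x * (inl g)⁻¹ = inl (g * x * g⁻¹) := by
          simp
        rw [e] at h3
        exact h3
      have h4 := hodd P' hAdm g hg'
      have e : (inl g : G ⋊[φ] ↥(zpowers u))⁻¹ * c * inl g * c⁻¹ = inl (g⁻¹ * u g) := by
        rw [map_mul, map_inv, ← hcl]
        group
      rw [e, orderOf_injective _ inl_injective]
      exact h4
  have hcore := comm_core hset R.not_dvd_index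
  let O' : Subgroup G := (pPrimeCore 2 (G ⋊[φ] ↥(zpowers u))).comap
    (inl : G →* G ⋊[φ] ↥(zpowers u))
  have hO'n : O'.Normal := Subgroup.Normal.comap (pPrimeCore_normal 2 _) _
  have hO'odd : Odd (Nat.card O') := by
    have h3 : Nat.card O' ∣ Nat.card (pPrimeCore 2 (G ⋊[φ] ↥(zpowers u))) := by
      let f : O' →* ↥(pPrimeCore 2 (G ⋊[φ] ↥(zpowers u))) :=
        (inl : G →* G ⋊[φ] ↥(zpowers u)).subgroupComap _
      refine Subgroup.card_dvd_of_injective f ?_
      intro a b hab
      apply Subtype.ext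
      apply SemidirectProduct.inl_injective (φ := φ)
      exact congrArg Subtype.val hab
    exact Odd.of_dvd_nat Cfsg.Agent.Lib.ZStar.Cor.odd_card_core h3
  have hO'b := hO O' hO'n hO'odd
  refine MulEquiv.ext fun g => ?_
  have h3 := hcore (inl g)
  have e : (inl g : G ⋊[φ] ↥(zpowers u)) * c * (inl g)⁻¹ * c⁻¹ = inl (g * (u g)⁻¹) := by
    have h4 : c * (inl g)⁻¹ * c⁻¹ = (inl (u g))⁻¹ := by
      have h7 := hcl (g⁻¹)
      simpa using h7
    rw [map_mul, map_inv, ← h4]
    group
  rw [e] at h3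
  have h5 : g * (u g)⁻¹ ∈ O' := h3
  rw [hO'b, mem_bot] at h5
  have h6 : g = u g := mul_inv_eq_one.1 h5
  exact h6.symm

end Cfsg.Agent.Lib.AutSyl.Semi
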