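import Mathlib
import Cfsg.Agent.Lib.AutSyl.Semi

/-!
# Automorphisms fixing a Sylow `2`-subgroup pointwise, when `O(G) = 1`

They form a group with a normal subgroup of odd order containing the commutators and
the `2^v`-th powers. So the Sylow `2`-subgroups are abelian with a normal complement.
-/

set_option autoImplicit false
set_option linter.style.haveILetI false
set_option linter.unusedSectionVars false

namespace Cfsg.Agent.Lib.AutSyl.Main

open Subgroup Cfsg Cfsg.Agent.Lib.AutSyl.Key Cfsg.Agent.Lib.AutSyl.Lambda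
  Cfsg.Agent.Lib.AutSyl.Semi

universe u

/-- The kernel. -/
theorem exists_kernel {G : Type u} [Group G] [Finite G]
    (hO : ∀ N : Subgroup G, N.Normal → Odd (Nat.card N) → N = ⊥) (S : Sylow 2 G)
    (C : Subgroup (MulAut G)) (hC : ∀ φ : MulAut G, φ ∈ C ↔ ∀ s : G, s ∈ S → φ s = s) :
    ∃ N : Subgroup ↥C, N.Normal ∧ Odd (Nat.card N) ∧ (∀ a b : ↥C, a * b * a⁻¹ * b⁻¹ ∈ N) ∧
      ∃ v : ℕ, ∀ a : ↥C, a ^ (2 ^ v) ∈ N := by
  classical
  obtain ⟨v, M, hM, hG⟩ := Nat.exists_eq_two_pow_mul_odd (Nat.card_pos (α := G)).ne'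
  have hC' : ∀ u ∈ C, ∀ s ∈ (S : Subgroup G), u s = s := fun u hu s hs => (hC u).1 hu s hs
  refine ⟨kerN (S : Subgroup G) C hC' M v hG hM, kerN_normal hC' hG hM, ?_,
    comm_mem_kerN hC' hG hM, v, pow_mem_kerN hC' hG hM⟩
  rw [← Nat.not_even_iff_odd]
  intro hev
  haveI : Fact (Nat.Prime 2) := ⟨Nat.prime_two⟩
  obtain ⟨x, hx⟩ := exists_prime_orderOf_dvd_card' 2 (G := ↥(kerN (S : Subgroup G) C hC' M v hG hM))
    hev.two_dvd
  have hxu : (((x : ↥C) : MulAut G)) = 1 := by
    refine eq_one_of_odd hO S _ (hC' _ (x : ↥C).2) ?_ ?_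
    · refine ⟨1, ?_⟩
      have h1 : x ^ 2 = 1 := by
        have h9 := pow_orderOf_eq_one x
        rwa [hx] at h9
      have h2 := congrArg (fun y : ↥(kerN (S : Subgroup G) C hC' M v hG hM) =>
        ((y : ↥C) : MulAut G)) h1
      simpa using h2
    · intro P hA g hg
      exact odd_of_mem_kerN x.2 hA hg
  have hx1 : x = 1 := by
    apply Subtype.ext
    apply Subtype.ext
    exact hxu
  rw [hx1, orderOf_one] at hx
  omega

variable {X : Type*} [Group X] [Finite X]

theorem isPGroup_quot (N : Subgroup X) [N.Normal] {v : ℕ} (hp : ∀ a : X, a ^ (2 ^ v) ∈ N) :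
    IsPGroup 2 (X ⧸ N) := by
  intro q
  obtain ⟨a, rfl⟩ := QuotientGroup.mk'_surjective N q
  refine ⟨v, ?_⟩
  rw [← map_pow]
  exact (QuotientGroup.eq_one_iff _).2 (hp a)

/-- A Sylow `2`-subgroup is abelian with normal complement. -/
theorem sylow_part (N : Subgroup X) (hn : N.Normal) (hodd : Odd (Nat.card N))
    (hcomm : ∀ a b : X, a * b * a⁻¹ * b⁻¹ ∈ N) {v : ℕ} (hp : ∀ a : X, a ^ (2 ^ v) ∈ N)
    (T : Sylow 2 X) :
    (∀ a b : ↥T, a * b = b * a) ∧ IsComplement' N (T : Subgroup X) := by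
  classical
  haveI : Fact (Nat.Prime 2) := ⟨Nat.prime_two⟩
  haveI := hn
  constructor
  · intro a b
    have h1 : (a : X) * b * (a : X)⁻¹ * (b : X)⁻¹ ∈ N := hcomm a b
    have h2 : (a : X) * b * (a : X)⁻¹ * (b : X)⁻¹ ∈ (T : Subgroup X) :=
      mul_mem (mul_mem (mul_mem a.2 b.2) (inv_mem a.2)) (inv_mem b.2)
    have h3 : Odd (orderOf ((a : X) * b * (a : X)⁻¹ * (b : X)⁻¹)) :=
      Odd.of_dvd_nat hodd (Subgroup.orderOf_dvd_natCard N h1)
    have h4 := eq_one_of_two_of_odd (twoElt_of_mem T.isPGroup' h2) h3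
    apply Subtype.ext
    show (a : X) * b = b * a
    calc (a : X) * b = ((a : X) * b * (a : X)⁻¹ * (b : X)⁻¹) * (b * a) := by group
      _ = b * a := by rw [h4, one_mul]
  · obtain ⟨n, hn'⟩ := IsPGroup.iff_card.1 (isPGroup_quot N hp)
    obtain ⟨t, ht⟩ := IsPGroup.iff_card.1 T.isPGroup'
    have hind : N.index = 2 ^ n := hn'
    have h1 : Nat.card N * 2 ^ n = Nat.card X := by
      rw [← hind]
      exact Subgroup.card_mul_index N
    have h2 : Nat.card (T : Subgroup X) * (T : Subgroup X).index = Nat.card X :=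
      Subgroup.card_mul_index _
    have hoddC : Nat.Coprime (Nat.card N) (2 ^ n) :=
      Nat.Coprime.pow_right _ (Nat.coprime_two_right.2 hodd)
    have hcop : Nat.Coprime (Nat.card N) (Nat.card (T : Subgroup X)) := by
      rw [ht]
      exact Nat.Coprime.pow_right _ (Nat.coprime_two_right.2 hodd)
    have h3 : Nat.card (T : Subgroup X) ∣ 2 ^ n := by
      apply hcop.symm.dvd_of_dvd_mul_left
      rw [h1, ← h2]
      exact Dvd.intro _ rfl
    have h4 : 2 ^ n ∣ Nat.card (T : Subgroup X) := by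
      have h5 : Nat.Coprime (2 ^ n) (T : Subgroup X).index :=
        Nat.Coprime.pow_left _ ((Nat.Prime.coprime_iff_not_dvd Nat.prime_two).2 T.not_dvd_index)
      apply h5.dvd_of_dvd_mul_right
      rw [h2, ← h1]
      exact Dvd.intro_left _ rfl
    have h6 : Nat.card (T : Subgroup X) = 2 ^ n := Nat.dvd_antisymm h3 h4
    refine isComplement'_of_coprime ?_ hcop
    rw [h6, h1]

/-- The solvable part. -/
theorem solvable_part (N : Subgroup X) (hn : N.Normal) (hcomm : ∀ a b : X, a * b * a⁻¹ * b⁻¹ ∈ N)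
    (hs : Group.IsSolvable N) : Group.IsSolvable X := by
  haveI := hn
  haveI : Group.IsSolvable (X ⧸ N) := by
    apply Group.isSolvable_of_comm
    intro a b
    obtain ⟨a, rfl⟩ := QuotientGroup.mk'_surjective N a
    obtain ⟨b, rfl⟩ := QuotientGroup.mk'_surjective N b
    have h1 := (QuotientGroup.eq_one_iff (N := N) _).2 (hcomm a b)
    have h2 : QuotientGroup.mk' N a * QuotientGroup.mk' N b * (QuotientGroup.mk' N a)⁻¹ *
        (QuotientGroup.mk' N b)⁻¹ = 1 := by
      rw [← h1]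
      rfl
    calc QuotientGroup.mk' N a * QuotientGroup.mk' N b =
        (QuotientGroup.mk' N a * QuotientGroup.mk' N b * (QuotientGroup.mk' N a)⁻¹ *
        (QuotientGroup.mk' N b)⁻¹) * (QuotientGroup.mk' N b * QuotientGroup.mk' N a) := by group
      _ = _ := by rw [h2, one_mul]
  refine Group.isSolvable_of_ker_le_range N.subtype (QuotientGroup.mk' N) ?_
  intro x hx
  have h1 : x ∈ N := (QuotientGroup.eq_one_iff x).1 hx
  exact ⟨⟨x, h1⟩, rfl⟩

end Cfsg.Agent.Lib.AutSyl.Main
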